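import Cfsg.Agent.H97.M24Two.Witness
import Cfsg.Agent.H52.M24Five.Local
import Cfsg.Agent.H91.M23Three.WidthOne
import Cfsg.Agent.H91.M23Three.Local
import Cfsg.Agent.H91.M23Three.Shape

/-!
The partners of a fixed member of a subgroup of order three of width two, seen in the type M(23)
group around this member.
-/

set_option autoImplicit false
set_option linter.unusedSectionVars false

open Subgroup Cfsg
open Cfsg.Agent.H43.FischerTwins
open Cfsg.Agent.H37.M22Odd (fixSet fixSet_eq mem_cent)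
open Cfsg.Agent.H52.M24Five (Loc partner_mem)
open Cfsg.Agent.H91.M23Three (GL23 Shape)

namespace Cfsg.Agent.H97.M24Two

/-- An element of order at most two with all products with conjugates cubing to one is central. -/
theorem gl23_central : ∀ A : Matrix (Fin 2) (Fin 2) (ZMod 3), A * A = 1 →
    A = 1 ∨ A = -1 ∨
      (A * (!![0, 1; 1, 1] * A * !![2, 1; 1, 0])) * (A * (!![0, 1; 1, 1] * A * !![2, 1; 1, 0])) *
        (A * (!![0, 1; 1, 1] * A * !![2, 1; 1, 0])) ≠ 1 := by
  decide +kernel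

/-- an element mixing the coordinates -/
def mixT : GL23 := ⟨!![0, 1; 1, 1], !![2, 1; 1, 0], by decide, by decide⟩

/-- a quarter turn -/
def quarter : GL23 := ⟨!![0, 1; 2, 0], !![0, 2; 1, 0], by decide, by decide⟩

theorem quarter_sq : quarter * quarter = -1 :=
  Units.ext (show (!![0, 1; 2, 0] : Matrix (Fin 2) (Fin 2) (ZMod 3)) * !![0, 1; 2, 0] = -1 by decide)

variable {G : Type*} [Group G] [Finite G] {D : Set G} {d : G}
  {M : Type*} [Group M] [Finite M] {QS : Set M}

/-- Partners commute exactly when their images do. -/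
theorem loc_commute (hD : Cfsg.IsThreeTranspositionClass D) (hQ : Cfsg.IsThreeTranspositionClass QS)
    (L : Loc D d M QS) {y z : G} (hy : y ∈ Sset D d) (hz : z ∈ Sset D d) :
    Commute (L.π ⟨y, partner_mem hy⟩) (L.π ⟨z, partner_mem hz⟩) ↔ Commute y z := by
  refine ⟨fun hc => ?_, fun hc => Commute.map
    (show Commute (⟨y, partner_mem hy⟩ : ↥(centralizer ({d} : Set G))) ⟨z, partner_mem hz⟩ from
      Subtype.ext hc.eq) L.π⟩
  by_contra hn
  set a := L.π ⟨y, partner_mem hy⟩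
  set b := L.π ⟨z, partner_mem hz⟩
  have h2 : (a * b) ^ 2 = 1 := by
    rw [hc.mul_pow, pow_two, pow_two, H17.sq_one hQ.1 (L.mem y hy), H17.sq_one hQ.1 (L.mem z hz),
      one_mul]
  have h3 : (a * b) ^ 3 = 1 := by
    rw [← map_mul, ← map_pow]
    convert map_one L.π
    exact Subtype.ext (H17.cube_one hD.1 hy.1 hz.1 hn)
  have hab : a * b = 1 := by
    rw [pow_succ, h2, one_mul] at h3
    exact h3
  refine hn ?_
  rw [L.inj y hy z hz ((mul_eq_one_iff_eq_inv.1 hab).trans (H17.inv_self hQ.1 (L.mem z hz)))]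

/-- Moving one member to a non-commuting one. -/
theorem move_mem (hD : Cfsg.IsThreeTranspositionSet D) {a b : G} (ha : a ∈ D) (hb : b ∈ D)
    (hab : ¬ Commute a b) : (a * b) * a * (a * b)⁻¹ = b := by
  rw [show (a * b) * a * (a * b)⁻¹ = (a * b) ^ 3 * b by
    simp only [pow_succ, pow_zero, one_mul, mul_inv_rev, H17.inv_self hD ha, H17.inv_self hD hb,
      mul_assoc, H17.sq_one hD hb, mul_one], H17.cube_one hD ha hb hab, one_mul]

/-- The members fixed by a subgroup and commuting with, and different from, one of them. -/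
def partners (D : Set G) (Y : Subgroup G) (d : G) : Set G :=
  {a | a ∈ D ∩ (centralizer (Y : Set G) : Set G) ∧ a ≠ d ∧ Commute d a}

theorem partners_sset {Y : Subgroup G} {a : G} (ha : a ∈ partners D Y d) : a ∈ Sset D d :=
  ⟨ha.1.1, ha.2.1, ha.2.2⟩

variable (hD : Cfsg.IsThreeTranspositionClass D) (hQ : Cfsg.IsThreeTranspositionClass QS)
  (L : Loc D d M QS) {Y : Subgroup G} (hY : Nat.card Y = 3)
  (hd : d ∈ D ∩ (centralizer (Y : Set G) : Set G))

include hY hd in
theorem le_cent : Y ≤ centralizer ({d} : Set G) :=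
  fun y hy => mem_cent.2 (show Commute y d from hd.2 y hy)

include hY in
theorem odd_Y : Odd (Nat.card Y) := by rw [hY]; decide

include hY hd in
theorem mem_fixed {a : G} (ha : a ∈ Sset D d) :
    a ∈ partners D Y d ↔ L.π ⟨a, partner_mem ha⟩ ∈ centralizer (L.img Y : Set M) := by
  rw [← L.fixed_iff (le_cent hY hd) (odd_Y hY) ha, fixSet_eq]
  exact ⟨fun h => h.1, fun h => ⟨h, ha.2.1, ha.2.2⟩⟩

include hY hd in
theorem exists_pre {s : M} (hs : s ∈ QS ∩ (centralizer (L.img Y : Set M) : Set M)) :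
    ∃ a, ∃ ha : a ∈ Sset D d, a ∈ partners D Y d ∧ L.π ⟨a, partner_mem ha⟩ = s := by
  obtain ⟨a, ha, e⟩ := L.surj s hs.1
  exact ⟨a, ha, (mem_fixed L hY hd ha).2 (e.symm ▸ hs.2), e⟩

include hD hQ L hY hd

/-- The width around a member is one. -/
theorem width_img (hw : Cfsg.commutingWidth (D ∩ (centralizer (Y : Set G) : Set G)) = 2) :
    Cfsg.commutingWidth (QS ∩ (centralizer (L.img Y : Set M) : Set M)) = 1 := by
  obtain ⟨⟨E, hE1, -, hE2, hE3⟩, hle⟩ :=
    H74.M23Three.width_attained (D ∩ (centralizer (Y : Set G) : Set G))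
  obtain ⟨⟨Eb, hB1, -, hB2, hB3⟩, hleb⟩ :=
    H74.M23Three.width_attained (QS ∩ (centralizer (L.img Y : Set M) : Set M))
  apply le_antisymm
  · choose f hfS hfP hfe using fun s : ↥Eb => exists_pre L hY hd (hB1 s.2)
    have hinj : Function.Injective f := fun s t e => Subtype.ext (by
      rw [← hfe s, ← hfe t]
      exact congrArg L.π (Subtype.ext e))
    have hmem : insert d (Set.range f) ⊆ D ∩ (centralizer (Y : Set G) : Set G) := by
      rintro x (rfl | ⟨s, rfl⟩)
      exacts [hd, (hfP s).1]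
    have := hle _ ⟨insert d (Set.range f), hmem, Set.toFinite _, ?_, rfl⟩
    · rw [Set.ncard_insert_of_notMem (by rintro ⟨s, hs⟩; exact (hfS s).2.1 hs) (Set.toFinite _),
        ← Nat.card_coe_set_eq, Nat.card_range_of_injective hinj, Nat.card_coe_set_eq, hw] at this
      omega
    · rintro x (rfl | ⟨s, rfl⟩) y (rfl | ⟨t, rfl⟩)
      · exact Commute.refl _
      · exact (hfS t).2.2
      · exact (hfS s).2.2.symm
      · refine (loc_commute hD hQ L (hfS s) (hfS t)).1 ?_
        rw [hfe, hfe]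
        exact hB2 _ s.2 _ t.2
  · obtain ⟨E', h1, h2, h3, h4⟩ := H74.M23Three.exists_clique_through hD (X := Y)
      (d := d) (E := E) (by rw [fixSet_eq]; exact hd) (by rw [fixSet_eq]; exact hE1) hE2
    have h5 : 2 ≤ E'.ncard := by rw [← hw, ← hE3]; exact h4
    obtain ⟨a, haE, had⟩ := Set.exists_ne_of_one_lt_ncard (s := E') (by omega) d
    rw [fixSet_eq] at h1
    have ha : a ∈ Sset D d := ⟨(h1 haE).1, had, h2 d h3 a haE⟩
    refine hleb 1 ⟨{L.π ⟨a, partner_mem ha⟩}, Set.singleton_subset_iff.2 ⟨L.mem a ha, ?_⟩,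
      Set.toFinite _, ?_, Set.ncard_singleton _⟩
    · exact (mem_fixed L hY hd ha).1 ⟨h1 haE, had, ha.2.2⟩
    · rintro x rfl y rfl
      exact Commute.refl _

variable (hw : Cfsg.commutingWidth (D ∩ (centralizer (Y : Set G) : Set G)) = 2)
include hw

theorem img_noncomm {s t : M} (hs : s ∈ QS ∩ (centralizer (L.img Y : Set M) : Set M))
    (ht : t ∈ QS ∩ (centralizer (L.img Y : Set M) : Set M)) (hne : s ≠ t) : ¬ Commute s t :=
  H91.M23Three.fix_noncomm (width_img hD hQ L hY hd hw) hs ht hne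

/-- The fixed partners are pairwise non-commuting. -/
theorem partners_noncomm {a b : G} (ha : a ∈ partners D Y d) (hb : b ∈ partners D Y d) (hne : a ≠ b) :
    ¬ Commute a b := fun hc =>
  img_noncomm hD hQ L hY hd hw ⟨L.mem a (partners_sset ha), (mem_fixed L hY hd (partners_sset ha)).1 ha⟩
    ⟨L.mem b (partners_sset hb), (mem_fixed L hY hd (partners_sset hb)).1 hb⟩
    (fun e => hne (L.inj a (partners_sset ha) b (partners_sset hb) e))
    ((loc_commute hD hQ L (partners_sset ha) (partners_sset hb)).2 hc)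

variable (hS : Shape QS (L.img Y))
include hS

/-- There are twenty-seven fixed partners. -/
theorem partners_card : (partners D Y d).ncard = 27 := by
  rw [← hS.1]
  refine Set.ncard_congr (fun a ha => L.π ⟨a, partner_mem (partners_sset ha)⟩)
    (fun a ha => ⟨L.mem a (partners_sset ha), (mem_fixed L hY hd (partners_sset ha)).1 ha⟩)
    (fun a b ha hb e => L.inj a (partners_sset ha) b (partners_sset hb) e) (fun s hs => ?_)
  obtain ⟨a, _, hP, e⟩ := exists_pre L hY hd hs
  exact ⟨a, hP, e⟩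

/-- The translations commute at every base point. -/
theorem img_comm : ∀ c ∈ QS ∩ (centralizer (L.img Y : Set M) : Set M),
    ∀ a ∈ QS ∩ (centralizer (L.img Y : Set M) : Set M),
    ∀ b ∈ QS ∩ (centralizer (L.img Y : Set M) : Set M),
    ∀ x ∈ QS ∩ (centralizer (L.img Y : Set M) : Set M),
    c * a * (c * b) * x * (c * a * (c * b))⁻¹ = c * b * (c * a) * x * (c * b * (c * a))⁻¹ := by
  obtain ⟨-, -, s, hs, hcomm⟩ := hS
  intro c hc a ha b hb x hx
  by_cases e : s = c
  · subst e; exact hcomm a ha b hb x hx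
  have hn := img_noncomm hD hQ L hY hd hw hs hc e
  have hmove := move_mem hQ.1 hs.1 hc.1 hn
  set n := s * c
  have hnC : n ∈ centralizer (L.img Y : Set M) := mul_mem hs.2 hc.2
  have back : ∀ y ∈ QS ∩ (centralizer (L.img Y : Set M) : Set M),
      n⁻¹ * y * n ∈ QS ∩ (centralizer (L.img Y : Set M) : Set M) := fun y hy =>
    ⟨by simpa using H17.class_conj hQ n⁻¹ y hy.1, mul_mem (mul_mem (inv_mem hnC) hy.2) hnC⟩
  have h := congrArg (MulAut.conj n) (hcomm _ (back a ha) _ (back b hb) _ (back x hx))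
  have ec : ∀ y, MulAut.conj n (n⁻¹ * y * n) = y := fun y => by simp [mul_assoc]
  simpa only [map_mul, map_inv, ec, show MulAut.conj n s = c from hmove] using h

/-- The translations of the fixed partners commute. -/
theorem partners_comm : ∀ c ∈ partners D Y d, ∀ a ∈ partners D Y d, ∀ b ∈ partners D Y d,
    ∀ x ∈ partners D Y d,
    c * a * (c * b) * x * (c * a * (c * b))⁻¹ = c * b * (c * a) * x * (c * b * (c * a))⁻¹ := by
  intro c hc a ha b hb x hx
  have hC : ∀ {y}, y ∈ partners D Y d → y ∈ centralizer (Y : Set G) ⊓ centralizer ({d} : Set G) :=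
    fun hy => ⟨hy.1.2, mem_cent.2 hy.2.2.symm⟩
  have conjP : ∀ g ∈ centralizer (Y : Set G) ⊓ centralizer ({d} : Set G),
      g * x * g⁻¹ ∈ partners D Y d := by
    intro g hg
    have hgd : g * d * g⁻¹ = d := mul_inv_eq_iff_eq_mul.2 (mem_cent.1 hg.2).eq
    refine ⟨⟨H17.class_conj hD g x hx.1.1, mul_mem (mul_mem hg.1 hx.1.2) (inv_mem hg.1)⟩,
      fun e => hx.2.1 ?_, ?_⟩
    · rw [← hgd] at e
      exact mul_left_cancel (mul_right_cancel e)
    · have := (H17.commute_conj g).2 hx.2.2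
      rwa [hgd] at this
  have m1 := conjP _ (mul_mem (mul_mem (hC hc) (hC ha)) (mul_mem (hC hc) (hC hb)))
  have m2 := conjP _ (mul_mem (mul_mem (hC hc) (hC hb)) (mul_mem (hC hc) (hC ha)))
  refine L.inj _ (partners_sset m1) _ (partners_sset m2) ?_
  let p : ∀ {y}, y ∈ partners D Y d → ↥(centralizer ({d} : Set G)) := fun {y} hy =>
    ⟨y, partner_mem (partners_sset hy)⟩
  have e1 : (⟨_, partner_mem (partners_sset m1)⟩ : ↥(centralizer ({d} : Set G))) =
      p hc * p ha * (p hc * p hb) * p hx * (p hc * p ha * (p hc * p hb))⁻¹ := Subtype.ext rfl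
  have e2 : (⟨_, partner_mem (partners_sset m2)⟩ : ↥(centralizer ({d} : Set G))) =
      p hc * p hb * (p hc * p ha) * p hx * (p hc * p hb * (p hc * p ha))⁻¹ := Subtype.ext rfl
  rw [e1, e2]
  simp only [map_mul, map_inv]
  have hmem : ∀ {y} (hy : y ∈ partners D Y d),
      L.π (p hy) ∈ QS ∩ (centralizer (L.img Y : Set M) : Set M) := fun hy =>
    ⟨L.mem _ (partners_sset hy), (mem_fixed L hY hd (partners_sset hy)).1 hy⟩
  exact img_comm hD hQ L hY hd hw hS _ (hmem hc) _ (hmem ha) _ (hmem hb) _ (hmem hx)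

variable (hN : Nat.card ↥(Cfsg.pCore 3 ↥(normalizer (L.img Y : Set M))) = 3 ^ 9 ∧
  Nonempty (↥(normalizer (L.img Y : Set M)) ⧸ Cfsg.pCore 3 ↥(normalizer (L.img Y : Set M)) ≃*
    Multiplicative (ZMod 2) × GL23))
include hN

theorem stab_card : Nat.card ↥(centralizer ({d} : Set G) ⊓ normalizer (Y : Set G)) =
    2 * (3 ^ 9 * (2 * 48)) := by
  obtain ⟨h1, ⟨e⟩⟩ := hN
  rw [inf_comm, L.card_normalizer (le_cent hY hd) (odd_Y hY),
    card_eq_card_quotient_mul_card_subgroup (Cfsg.pCore 3 ↥(normalizer (L.img Y : Set M))),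
    Nat.card_congr e.toEquiv, Nat.card_prod, H91.M23Three.card_gl23, h1]
  simp [Nat.card_eq_fintype_card]

theorem stab_not_five : ¬ 5 ∣ Nat.card ↥(centralizer ({d} : Set G) ⊓ normalizer (Y : Set G)) := by
  rw [stab_card hD hQ L hY hd hw hS hN]
  norm_num

/-- The action on the fixed partners splits off: the stabilizer maps onto GL(2,3). -/
theorem exists_stab : ∃ stab : ↥(centralizer ({d} : Set G) ⊓ normalizer (Y : Set G)) →* GL23,
    Function.Surjective stab ∧ Nat.card ↥stab.ker = 4 * 3 ^ 9 ∧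
      ∀ n : ↥(centralizer ({d} : Set G) ⊓ normalizer (Y : Set G)),
        (n : G) = d ∨ (n : G) ∈ partners D Y d → stab n = 1 := by
  classical
  have hYd := le_cent hY hd
  have hodd := odd_Y hY
  have hXodd : Odd (Nat.card ↥(Y.subgroupOf (centralizer ({d} : Set G)))) := by
    rwa [Nat.card_congr (subgroupOfEquivOfLe hYd).toEquiv]
  have hcardN := stab_card hD hQ L hY hd hw hS hN
  obtain ⟨h9, ⟨e⟩⟩ := hN
  set Nm := normalizer (L.img Y : Set M)
  let q : ↥Nm →* Multiplicative (ZMod 2) × GL23 := e.toMonoidHom.comp (QuotientGroup.mk' _)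
  have hq : Function.Surjective q := e.surjective.comp (QuotientGroup.mk'_surjective _)
  -- the map on the stabilizer
  have hnorm : ∀ n : ↥(centralizer ({d} : Set G) ⊓ normalizer (Y : Set G)),
      L.π ⟨n, n.2.1⟩ ∈ Nm := fun n => (H43.Lift.mem_normalizer L.cover hXodd).2 (by
    refine mem_normalizer_fintype fun x hx => ?_
    exact mem_subgroupOf.2 ((mem_normalizer_iff.1 n.2.2 _).1 (mem_subgroupOf.1 hx)))
  let θ : ↥(centralizer ({d} : Set G) ⊓ normalizer (Y : Set G)) →* ↥Nm :=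
    MonoidHom.mk' (fun n => ⟨L.π ⟨n, n.2.1⟩, hnorm n⟩) fun n m =>
      Subtype.ext (map_mul L.π ⟨n, n.2.1⟩ ⟨m, m.2.1⟩)
  have hθ : Function.Surjective θ := by
    rintro ⟨m, hm⟩
    obtain ⟨k, rfl⟩ := L.cover.surj m
    refine ⟨⟨k, k.2, mem_normalizer_fintype fun y hy => ?_⟩, Subtype.ext rfl⟩
    exact mem_subgroupOf.1 ((mem_normalizer_iff.1 ((H43.Lift.mem_normalizer L.cover hXodd).1 hm)
      ⟨y, hYd hy⟩).1 (mem_subgroupOf.2 hy))
  -- the fixed set downstairs
  set S := QS ∩ (centralizer (L.img Y : Set M) : Set M) with hSdef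
  have hSN : ∀ a ∈ S, a ∈ Nm := fun a ha => centralizer_le_normalizer _ ha.2
  have hSst : ∀ n ∈ Nm, ∀ a ∈ S, n * a * n⁻¹ ∈ S := fun n hn a ha =>
    ⟨H17.class_conj hQ n a ha.1, mem_centralizer_iff.2 fun y hy => by
      have hy' : n⁻¹ * y * n ∈ L.img Y := by
        simpa using (mem_normalizer_iff.1 (inv_mem hn) y).1 hy
      calc y * (n * a * n⁻¹) = n * ((n⁻¹ * y * n) * a) * n⁻¹ := by group
        _ = n * (a * (n⁻¹ * y * n)) * n⁻¹ := by rw [mem_centralizer_iff.1 ha.2 _ hy']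
        _ = _ := by group⟩
  have hScard : S.ncard = 27 := hS.1
  obtain ⟨a₀, ha₀⟩ : S.Nonempty := Set.nonempty_of_ncard_ne_zero (by omega)
  let a₀' : ↥Nm := ⟨a₀, hSN a₀ ha₀⟩
  have ha₀2 : a₀' * a₀' = 1 := Subtype.ext (H17.sq_one hQ.1 ha₀.1)
  -- the image is central
  set t := q a₀' with ht
  have ht2 : t.2 * t.2 = 1 := by rw [← Prod.snd_mul, ht, ← map_mul, ha₀2, map_one]; rfl
  have hts : t.2 = 1 ∨ t.2 = -1 := by
    rcases gl23_central t.2 (congrArg Units.val ht2) with h | h | h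
    · exact Or.inl (Units.ext h)
    · exact Or.inr (Units.ext h)
    · refine absurd ?_ h
      obtain ⟨n, hn⟩ := hq (1, mixT)
      set b : ↥Nm := n * a₀' * n⁻¹ with hb
      have hbS : (b : M) ∈ S := hSst n n.2 a₀ ha₀
      have hcube : (a₀' * b) ^ 3 = 1 := by
        by_cases e' : a₀ = (b : M)
        · rw [← show a₀' = b from Subtype.ext e', ha₀2, one_pow]
        · exact Subtype.ext (H17.cube_one hQ.1 ha₀.1 hbS.1
            (img_noncomm hD hQ L hY hd hw ha₀ hbS e'))
      have := congrArg (fun z : Multiplicative (ZMod 2) × GL23 => (z.2 : Matrix (Fin 2) (Fin 2) (ZMod 3)))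
        ((map_pow q (a₀' * b) 3).symm.trans (by rw [hcube, map_one]))
      rw [map_mul, hb, map_mul, map_mul, map_inv, hn, ← ht] at this
      simpa [pow_three', mixT] using this
  -- a sign
  haveI : Fintype ↥S := Fintype.ofFinite _
  let sgn : ↥Nm →* ℤˣ := Equiv.Perm.sign.comp (H91.M23Three.permHom Nm S hSst)
  have hsgnK : ∀ r ∈ Cfsg.pCore 3 ↥Nm, sgn r = 1 := by
    intro r hr
    obtain ⟨k, hk⟩ := H51.pCore_isPGroup 3 ↥Nm ⟨r, hr⟩
    have h1 : r ^ 3 ^ k = 1 := by simpa using congrArg Subtype.val hk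
    have h2 := congrArg sgn h1
    rw [map_pow, map_one] at h2
    rcases Int.units_eq_one_or (sgn r) with e | e
    · exact e
    · rw [e, ((by decide : Odd 3).pow).neg_one_pow] at h2
      exact absurd h2 (by decide)
  have hsa : sgn a₀' = -1 := by
    set σ := H91.M23Three.permHom Nm S hSst a₀' with hσ
    have hfix : ∀ a : ↥S, σ a = a → (a : M) = a₀ := by
      intro a ha
      by_contra hne
      exact img_noncomm hD hQ L hY hd hw ha₀ a.2 (Ne.symm hne)
        (mul_inv_eq_iff_eq_mul.1 (congrArg Subtype.val ha))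
    have hd1 : σ ⟨a₀, ha₀⟩ = ⟨a₀, ha₀⟩ := Subtype.ext (show a₀ * a₀ * a₀⁻¹ = a₀ by group)
    have hsupp : σ.support = Finset.univ.erase ⟨a₀, ha₀⟩ := by
      ext a
      rw [Equiv.Perm.mem_support, Finset.mem_erase]
      exact ⟨fun ha => ⟨fun e' => ha (e' ▸ hd1), Finset.mem_univ _⟩,
        fun ha e' => ha.1 (Subtype.ext (hfix a e'))⟩
    have hc : σ.support.card = 26 := by
      rw [hsupp, Finset.card_erase_of_mem (Finset.mem_univ _), Finset.card_univ,
        ← Nat.card_eq_fintype_card, Nat.card_coe_set_eq, hScard]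
    have h2 : σ ^ 2 = 1 := by rw [hσ, ← map_pow, pow_two, ha₀2, map_one]
    have hord : orderOf σ = 2 := orderOf_eq_prime h2 fun e1 => by simp [e1] at hc
    obtain ⟨k, hk⟩ := Equiv.Perm.cycleType_prime_order (hord.symm ▸ Nat.prime_two)
    rw [hord] at hk
    have hsum := σ.sum_cycleType
    rw [hk, hc, Multiset.sum_replicate, smul_eq_mul] at hsum
    show Equiv.Perm.sign σ = -1
    rw [Equiv.Perm.sign_of_cycleType, hk, Multiset.sum_replicate, Multiset.card_replicate,
      smul_eq_mul, show k + 1 = 13 by omega]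
    rfl
  -- choose the projection
  obtain ⟨φ, hφs, hφt⟩ : ∃ φ : Multiplicative (ZMod 2) × GL23 →* GL23,
      Function.Surjective φ ∧ φ t = 1 := by
    rcases hts with h | h
    · exact ⟨MonoidHom.snd _ _, Prod.snd_surjective, h⟩
    have h1 : t.1 ≠ 1 := by
      intro h1
      let χ : Multiplicative (ZMod 2) × GL23 →* ℤˣ :=
        (QuotientGroup.lift _ sgn hsgnK).comp e.symm.toMonoidHom
      have hχ : ∀ r, χ (q r) = sgn r := fun r => by
        show QuotientGroup.lift _ sgn hsgnK (e.symm (e (QuotientGroup.mk r))) = sgn r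
        rw [e.symm_apply_apply]; rfl
      have h2 : t = (1, quarter) * (1, quarter) := by
        rw [Prod.mk_mul_mk, one_mul, quarter_sq]
        exact Prod.ext h1 h
      have h3 := hχ a₀'
      rw [← ht, h2, map_mul, hsa, Int.units_mul_self] at h3
      exact absurd h3 (by decide)
    let ε : Multiplicative (ZMod 2) →* GL23 :=
      { toFun := fun i => if i = 1 then 1 else -1
        map_one' := if_pos rfl
        map_mul' := by decide +kernel }
    refine ⟨MonoidHom.noncommCoprod ε (MonoidHom.id GL23) (fun i g => ?_), fun g => ⟨(1, g), ?_⟩, ?_⟩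
    · show Commute (if i = 1 then (1 : GL23) else -1) g
      split
      exacts [Commute.one_left g, Commute.neg_one_left g]
    · simp [ε]
    · show (if t.1 = 1 then (1 : GL23) else -1) * t.2 = 1
      rw [if_neg h1, h, neg_mul_neg, one_mul]
  have hall : ∀ a (ha : a ∈ S), φ (q ⟨a, hSN a ha⟩) = 1 := by
    intro a ha
    by_cases e' : a₀ = a
    · subst e'; exact hφt
    have hmv := move_mem hQ.1 ha₀.1 ha.1 (img_noncomm hD hQ L hY hd hw ha₀ ha e')
    let n : ↥Nm := ⟨a₀ * a, mul_mem (hSN _ ha₀) (hSN _ ha)⟩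
    rw [show (⟨a, hSN a ha⟩ : ↥Nm) = n * a₀' * n⁻¹ from Subtype.ext hmv.symm, map_mul, map_mul,
      map_mul, map_mul, ← ht, hφt, mul_one, ← map_mul, ← map_mul, mul_inv_cancel, map_one, map_one]
  let stab := (φ.comp q).comp θ
  have hstab : Function.Surjective stab := (hφs.comp hq).comp hθ
  refine ⟨stab, hstab, ?_, fun n hn => ?_⟩
  · have h1 := card_eq_card_quotient_mul_card_subgroup stab.ker
    rw [Nat.card_congr (QuotientGroup.quotientKerEquivOfSurjective stab hstab).toEquiv,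
      H91.M23Three.card_gl23, hcardN] at h1
    omega
  · rcases hn with hn | hn
    · have h1 : θ n = 1 := Subtype.ext ((L.cover.ker _).2 (Or.inr (Subtype.ext hn)))
      show φ (q (θ n)) = 1
      rw [h1, map_one, map_one]
    · exact hall _ ⟨L.mem (n : G) (partners_sset hn), (mem_fixed L hY hd (partners_sset hn)).1 hn⟩

omit hS hN in
/-- Three commuting pairs generating the subgroup, and a fixed partner commuting with them. -/
theorem exists_config (hp : Cfsg.IsPrimitiveUnderConj QS) (h23 : Cfsg.IsOfTypeM23 M QS) :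
    ∃ p q : Fin 3 → G, H43.Frame.Tuple D p q ∧ (∀ i, p i ∈ Sset D d ∧ q i ∈ Sset D d) ∧
      zpowers (prod3 p q) = Y ∧
      ∃ e ∈ partners D Y d, ∀ i, e ≠ p i ∧ e ≠ q i ∧ Commute e (p i) ∧ Commute e (q i) := by
  have hYd := le_cent hY hd
  have hodd := odd_Y hY
  obtain ⟨P, Q, w, hwQ, ⟨hT1, hT2⟩, hwPQ, ho, hwid⟩ := m23_witness hQ hp h23
  obtain ⟨g, hg⟩ := width_one_conj hQ hp h23 (X := zpowers (prod3 P Q)) (Z := L.img Y)
    (by rw [Nat.card_zpowers, ho]) ((L.card_img hYd hodd).trans hY) hwid (width_img hD hQ L hY hd hw)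
  have hconj := H17.class_conj hQ
  choose p hp1 hp2 using fun i => L.surj (g * P i * g⁻¹) (hconj g _ (hT1 i).1)
  choose q hq1 hq2 using fun i => L.surj (g * Q i * g⁻¹) (hconj g _ (hT1 i).2.1)
  obtain ⟨e, he1, he2⟩ := L.surj (g * w * g⁻¹) (hconj g _ hwQ)
  have tr : ∀ {a b : G} (ha : a ∈ Sset D d) (hb : b ∈ Sset D d) {A B : M},
      L.π ⟨a, partner_mem ha⟩ = g * A * g⁻¹ → L.π ⟨b, partner_mem hb⟩ = g * B * g⁻¹ →
      (Commute a b ↔ Commute A B) := by
    intro a b ha hb A B eA eB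
    rw [← loc_commute hD hQ L ha hb, eA, eB, H17.commute_conj]
  have hne : ∀ {a b : G} (ha : a ∈ Sset D d) (hb : b ∈ Sset D d) {A B : M},
      L.π ⟨a, partner_mem ha⟩ = g * A * g⁻¹ → L.π ⟨b, partner_mem hb⟩ = g * B * g⁻¹ →
      A ≠ B → a ≠ b := by
    intro a b ha hb A B eA eB hAB e
    subst e
    exact hAB (mul_left_cancel (mul_right_cancel (eA.symm.trans eB)))
  have htup : H43.Frame.Tuple D p q :=
    ⟨fun i => ⟨(hp1 i).1, (hq1 i).1, fun hc => (hT1 i).2.2 ((tr (hp1 i) (hq1 i) (hp2 i) (hq2 i)).1 hc)⟩,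
      fun i j hij => ⟨(tr (hp1 i) (hp1 j) (hp2 i) (hp2 j)).2 (hT2 i j hij).1,
        (tr (hp1 i) (hq1 j) (hp2 i) (hq2 j)).2 (hT2 i j hij).2.1, (tr (hq1 i) (hq1 j) (hq2 i) (hq2 j)).2 (hT2 i j hij).2.2⟩⟩
  let pc : Fin 3 → ↥(centralizer ({d} : Set G)) := fun i => ⟨p i, partner_mem (hp1 i)⟩
  let qc : Fin 3 → ↥(centralizer ({d} : Set G)) := fun i => ⟨q i, partner_mem (hq1 i)⟩
  have hcoe : ((prod3 pc qc : ↥(centralizer ({d} : Set G))) : G) = prod3 p q :=
    map_prod3 (centralizer ({d} : Set G)).subtype pc qc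
  have himg : L.π (prod3 pc qc) = g * prod3 P Q * g⁻¹ := by
    rw [map_prod3, show L.π ∘ pc = (MulAut.conj g).toMonoidHom ∘ P from funext hp2,
      show L.π ∘ qc = (MulAut.conj g).toMonoidHom ∘ Q from funext hq2, ← map_prod3]
    rfl
  have hcpq : ∀ i j, i ≠ j → Commute (p i * q i) (p j * q j) := fun i j hij =>
    ((htup.2 i j hij).1.mul_right (htup.2 i j hij).2.1).mul_left
      ((htup.2 j i hij.symm).2.1.symm.mul_right (htup.2 i j hij).2.2)
  have h3 : prod3 p q ^ 3 = 1 := by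
    rw [prod3, ((hcpq 0 2 (by decide)).mul_left (hcpq 1 2 (by decide))).mul_pow,
      (hcpq 0 1 (by decide)).mul_pow, H17.cube_one hD.1 (hp1 0).1 (hq1 0).1 (htup.1 0).2.2,
      H17.cube_one hD.1 (hp1 1).1 (hq1 1).1 (htup.1 1).2.2,
      H17.cube_one hD.1 (hp1 2).1 (hq1 2).1 (htup.1 2).2.2, one_mul, one_mul]
  have hle : Y ≤ zpowers (prod3 p q) := by
    intro x hx
    have hxi : L.π ⟨x, hYd hx⟩ ∈ L.img Y := mem_map_of_mem L.π (mem_subgroupOf.2 hx)
    rw [← hg, MonoidHom.map_zpowers] at hxi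
    obtain ⟨k, hk⟩ := mem_zpowers_iff.1 hxi
    have ek : L.π ⟨x, hYd hx⟩ = L.π (prod3 pc qc ^ k) := by
      rw [map_zpow, himg, ← hk]; rfl
    have hox : Odd (orderOf (⟨x, hYd hx⟩ : ↥(centralizer ({d} : Set G)))) := by
      rw [orderOf_mk]
      exact hodd.of_dvd_nat (orderOf_dvd_natCard Y hx)
    have hoy : Odd (orderOf (prod3 pc qc ^ k)) := by
      refine Odd.of_dvd_nat (by decide : Odd 3) (orderOf_dvd_of_pow_eq_one ?_)
      refine Subtype.ext ?_
      rw [SubgroupClass.coe_pow, SubgroupClass.coe_zpow, hcoe, ← zpow_natCast, ← zpow_mul,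
        mul_comm, zpow_mul, zpow_natCast, h3, one_zpow]; rfl
    have := (H43.Lift.eq_of_odd L.cover hox hoy ek).symm
    refine mem_zpowers_iff.2 ⟨k, ?_⟩
    have h' := congrArg Subtype.val this
    simp only [SubgroupClass.coe_zpow, hcoe] at h'
    exact h'.symm
  have hgen : zpowers (prod3 p q) = Y := by
    refine (eq_of_le_of_card_ge hle ?_).symm
    rw [hY, Nat.card_zpowers]
    exact Nat.le_of_dvd (by norm_num) (orderOf_dvd_of_pow_eq_one h3)
  refine ⟨p, q, htup, fun i => ⟨hp1 i, hq1 i⟩, hgen, e, ?_, fun i => ?_⟩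
  · refine (mem_fixed L hY hd he1).2 ?_
    rw [he2, ← hg, mem_centralizer_iff]
    rintro _ ⟨x, hx, rfl⟩
    obtain ⟨k, rfl⟩ := mem_zpowers_iff.1 hx
    have hwc : Commute w (prod3 P Q) :=
      ((((hwPQ 0).2.2.1.mul_right (hwPQ 0).2.2.2)).mul_right
        ((hwPQ 1).2.2.1.mul_right (hwPQ 1).2.2.2)).mul_right
        ((hwPQ 2).2.2.1.mul_right (hwPQ 2).2.2.2)
    exact ((H17.commute_conj g).2 (hwc.zpow_right k)).symm.eq
  · exact ⟨hne he1 (hp1 i) he2 (hp2 i) (hwPQ i).1, hne he1 (hq1 i) he2 (hq2 i) (hwPQ i).2.1,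
      (tr he1 (hp1 i) he2 (hp2 i)).2 (hwPQ i).2.2.1, (tr he1 (hq1 i) he2 (hq2 i)).2 (hwPQ i).2.2.2⟩

end Cfsg.Agent.H97.M24Two
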